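import Groth.Agent.S2039
import Groth.Agent.S2082
import Groth.Agent.CalgB.GRing2
import Groth.Agent.S0548
import Groth.Agent.CalgB.FormalFibre2
import Groth.Agent.Ega4A.RegCM

/-!
# A local homomorphism of regular local rings which extends a regular system of parameters

`isRegularHom_of_parameters`: `A → B` local homomorphism of regular local rings containing `ℚ`, `A` a
G-ring, a regular system of parameters of `A` is part of one of `B`; then `A → B` is a regular
homomorphism.
-/

set_option autoImplicit false
universe u

namespace Groth.Agent.Sga7.H874.RegParam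

open IsLocalRing TensorProduct
open Groth.Agent.CalgB.RegHom3 Groth.Agent.CalgB.RegHom6 Groth.Agent.CalgB.RegHom7

theorem ncard_range_le {α : Type*} {n : ℕ} (f : Fin n → α) : (Set.range f).ncard ≤ n := by
  rw [← Set.image_univ]
  exact (Set.ncard_image_le Set.finite_univ).trans (by simp [Set.ncard_univ])

section Basic

variable {A B : Type u} [CommRing A] [CommRing B] [IsRegularLocalRing A] [IsRegularLocalRing B]
  [Algebra A B] [IsLocalHom (algebraMap A B)] {c d : ℕ} {t : Fin c → A} {s : Fin d → B}

theorem map_maximalIdeal_le : (maximalIdeal A).map (algebraMap A B) ≤ maximalIdeal B :=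
  ((IsLocalRing.local_hom_TFAE (algebraMap A B)).out 0 2).mp ‹IsLocalHom (algebraMap A B)›

omit [IsRegularLocalRing B] [IsLocalHom (algebraMap A B)] in
theorem map_eq_span (ht : Ideal.span (Set.range t) = maximalIdeal A) :
    (maximalIdeal A).map (algebraMap A B) = Ideal.span (Set.range fun i => algebraMap A B (t i)) := by
  rw [← ht, Ideal.map_span, ← Set.range_comp]
  rfl

theorem quotient_facts (ht : Ideal.span (Set.range t) = maximalIdeal A)
    (hs : Ideal.span (Set.range (fun i => algebraMap A B (t i)) ∪ Set.range s) = maximalIdeal B)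
    (hB' : ringKrullDim B = (c + d : ℕ)) :
    IsRegularLocalRing (B ⧸ (maximalIdeal A).map (algebraMap A B)) ∧
      ringKrullDim (B ⧸ (maximalIdeal A).map (algebraMap A B)) = d := by
  have hle : (maximalIdeal A).map (algebraMap A B) ≤ maximalIdeal B := map_maximalIdeal_le
  have hne : (maximalIdeal A).map (algebraMap A B) ≠ ⊤ := fun h =>
    (maximalIdeal.isMaximal B).ne_top (top_le_iff.mp (h ▸ hle))
  have : Nontrivial (B ⧸ (maximalIdeal A).map (algebraMap A B)) := Ideal.Quotient.nontrivial_iff.mpr hne
  have : IsLocalRing (B ⧸ (maximalIdeal A).map (algebraMap A B)) :=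
    IsLocalRing.of_surjective' (Ideal.Quotient.mk _) Ideal.Quotient.mk_surjective
  -- lower bound of the dimension
  have h1 : ringKrullDim B ≤ ringKrullDim (B ⧸ (maximalIdeal A).map (algebraMap A B)) +
      ((maximalIdeal A).map (algebraMap A B)).spanFinrank :=
    ringKrullDim_le_ringKrullDim_quotient_add_spanFinrank _ (by
      rw [IsLocalRing.ringJacobson_eq_maximalIdeal]; exact hle)
  have h2 : ((maximalIdeal A).map (algebraMap A B)).spanFinrank ≤ c := by
    rw [map_eq_span ht]
    exact le_trans (Submodule.spanFinrank_span_le_ncard_of_finite (Set.finite_range _))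
      (ncard_range_le _)
  have h3 : maximalIdeal (B ⧸ (maximalIdeal A).map (algebraMap A B)) =
      Ideal.span (Set.range fun i => Ideal.Quotient.mk ((maximalIdeal A).map (algebraMap A B)) (s i)) := by
    rw [← IsLocalRing.map_maximalIdeal_of_surjective (Ideal.Quotient.mk _) Ideal.Quotient.mk_surjective,
      ← hs, Ideal.map_span, Set.image_union, Ideal.span_union, ← Set.range_comp, ← Set.range_comp]
    have : Ideal.span (Set.range ((Ideal.Quotient.mk ((maximalIdeal A).map (algebraMap A B))) ∘
        fun i => algebraMap A B (t i))) = ⊥ := by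
      rw [Ideal.span_eq_bot]
      rintro _ ⟨i, rfl⟩
      rw [Function.comp_apply, Ideal.Quotient.eq_zero_iff_mem]
      exact Ideal.mem_map_of_mem _ (ht ▸ Ideal.subset_span ⟨i, rfl⟩)
    rw [this, bot_sup_eq]
    rfl
  have h4 : (maximalIdeal (B ⧸ (maximalIdeal A).map (algebraMap A B))).spanFinrank ≤ d := by
    rw [h3]
    exact le_trans (Submodule.spanFinrank_span_le_ncard_of_finite (Set.finite_range _))
      (ncard_range_le _)
  have h5 : ringKrullDim (B ⧸ (maximalIdeal A).map (algebraMap A B)) ≤ (d : WithBot ℕ∞) :=
    le_trans (ringKrullDim_le_spanFinrank_maximalIdeal _) (by exact_mod_cast h4)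
  have h6 : (d : WithBot ℕ∞) ≤ ringKrullDim (B ⧸ (maximalIdeal A).map (algebraMap A B)) := by
    have h7 : ((c + d : ℕ) : WithBot ℕ∞) ≤
        ringKrullDim (B ⧸ (maximalIdeal A).map (algebraMap A B)) + c := by
      rw [← hB']
      refine h1.trans ?_
      gcongr
    obtain ⟨e, he⟩ : ∃ e : ℕ, ringKrullDim (B ⧸ (maximalIdeal A).map (algebraMap A B)) = e := by
      have hb : ringKrullDim (B ⧸ (maximalIdeal A).map (algebraMap A B)) ≠ ⊥ := ringKrullDim_ne_bot
      obtain ⟨x, hx⟩ := WithBot.ne_bot_iff_exists.mp hb
      rw [← hx] at h5 ⊢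
      have hx' : x ≤ (d : ℕ∞) := by exact_mod_cast h5
      obtain ⟨m, hm⟩ := ENat.ne_top_iff_exists.mp (ne_top_of_le_ne_top (ENat.natCast_ne_top d) hx')
      exact ⟨m, by rw [← hm]; rfl⟩
    rw [he] at h7 ⊢
    have : c + d ≤ e + c := by exact_mod_cast h7
    exact_mod_cast (by omega : d ≤ e)
  refine ⟨IsRegularLocalRing.of_spanFinrank_maximalIdeal_le _ (le_trans (by exact_mod_cast h4) h6),
    le_antisymm h5 h6⟩

theorem flat (ht : Ideal.span (Set.range t) = maximalIdeal A) (hA' : ringKrullDim A = c)
    (hs : Ideal.span (Set.range (fun i => algebraMap A B (t i)) ∪ Set.range s) = maximalIdeal B)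
    (hB' : ringKrullDim B = (c + d : ℕ)) : Module.Flat A B := by
  have : LocCoh.IsCohenMacaulayLocalRing B :=
    Groth.Agent.Ega4A.RegCM.isCohenMacaulayLocalRing_of_isRegularLocalRing B
  apply Groth.Agent.S2082.result
  rw [(quotient_facts ht hs hB').2, hA', hB']
  push_cast
  rfl

/-- The special fibre is geometrically regular in characteristic zero. -/
theorem geomReg [Algebra ℚ A] (ht : Ideal.span (Set.range t) = maximalIdeal A)
    (hs : Ideal.span (Set.range (fun i => algebraMap A B (t i)) ∪ Set.range s) = maximalIdeal B)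
    (hB' : ringKrullDim B = (c + d : ℕ)) :
    CAlg.IsGeometricallyRegular (maximalIdeal A).ResidueField ((maximalIdeal A).Fiber B) := by
  have h1 := (quotient_facts ht hs hB').1
  have h2 : IsRegularLocalRing ((maximalIdeal A).Fiber B) :=
    IsRegularLocalRing.of_ringEquiv (Groth.Agent.S2038.fibreEquiv A B).symm
  have h3 : IsRegularRing ((maximalIdeal A).Fiber B) :=
    Groth.Agent.CalgB.FormalFibre2.isRegularRing_of_isRegularLocalRing _
  have h4 : CharZero (maximalIdeal A).ResidueField :=
    algebraRat.charZero _
  intro k' _ _ _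
  exact isRegularRing_tensor_of_perfectField

theorem adicSmooth [Algebra ℚ A] (ht : Ideal.span (Set.range t) = maximalIdeal A)
    (hA' : ringKrullDim A = c)
    (hs : Ideal.span (Set.range (fun i => algebraMap A B (t i)) ∪ Set.range s) = maximalIdeal B)
    (hB' : ringKrullDim B = (c + d : ℕ)) :
    CAlgX.IsAdicFormallySmooth A B (maximalIdeal B) :=
  Groth.Agent.S2038.result.mp ⟨flat ht hA' hs hB', geomReg ht hs hB'⟩

end Basic

/-- A local homomorphism of regular local rings of characteristic zero which carries a regular system of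
parameters of the source (a `G`-ring) to a part of one of the target is a regular homomorphism. -/
theorem isRegularHom_of_parameters (A B : Type u) [CommRing A] [CommRing B] [IsRegularLocalRing A]
    [IsRegularLocalRing B] [Algebra A B] [IsLocalHom (algebraMap A B)] [Algebra ℚ A]
    (hA : CAlg.IsGRing A) (c d : ℕ) (t : Fin c → A) (s : Fin d → B)
    (ht : Ideal.span (Set.range t) = maximalIdeal A) (hA' : ringKrullDim A = c)
    (hs : Ideal.span (Set.range (fun i => algebraMap A B (t i)) ∪ Set.range s) = maximalIdeal B)
    (hB' : ringKrullDim B = (c + d : ℕ)) : CAlg.IsRegularHom A B := by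
  have hNA : IsNoetherianRing A := inferInstance
  have hNB : IsNoetherianRing B := inferInstance
  let A' := AdicCompletion (maximalIdeal A) A
  let B' := AdicCompletion (maximalIdeal B) B
  have hNA' : IsNoetherianRing A' := Groth.Agent.Ega4A.CplFlat.isNoetherianRing_cpl A
  have hNB' : IsNoetherianRing B' := Groth.Agent.Ega4A.CplFlat.isNoetherianRing_cpl B
  let _ : Algebra A' B' := (Groth.Agent.Ega4A.CplFlat.cplMap A B).toAlgebra
  have hloc : IsLocalHom (algebraMap A' B') := Groth.Agent.Ega4A.CplFlat.isLocalHom_cplMap A B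
  have hcomm : ∀ x : A, algebraMap A' B' (algebraMap A A' x) = algebraMap B B' (algebraMap A B x) :=
    fun x => Groth.Agent.Ega4A.CplFlat.cplMap_algebraMap A B x
  have hRA : IsRegularLocalRing A' := (Groth.Agent.S0548.result A).mp inferInstance
  have hRB : IsRegularLocalRing B' := (Groth.Agent.S0548.result B).mp inferInstance
  let _ : Algebra ℚ A' := ((algebraMap A A').comp (algebraMap ℚ A)).toAlgebra
  have h1 : CAlgX.IsAdicFormallySmooth A' B' (maximalIdeal B') := by
    refine adicSmooth (c := c) (d := d) (t := fun i => algebraMap A A' (t i))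
      (s := fun i => algebraMap B B' (s i)) ?_ ?_ ?_ ?_
    · have hmA : maximalIdeal A' = (Ideal.span (Set.range t)).map (algebraMap A A') :=
        (AdicCompletion.maximalIdeal_eq_map (R := A)).trans
          (congrArg (Ideal.map (algebraMap A A')) ht.symm)
      rw [hmA, Ideal.map_span, ← Set.range_comp]
      rfl
    · rw [Groth.Agent.S0547.result, hA']
    · have hmB : maximalIdeal B' = (Ideal.span (Set.range (fun i => algebraMap A B (t i)) ∪
          Set.range s)).map (algebraMap B B') :=
        (AdicCompletion.maximalIdeal_eq_map (R := B)).trans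
          (congrArg (Ideal.map (algebraMap B B')) hs.symm)
      rw [hmB, Ideal.map_span, Set.image_union, ← Set.range_comp, ← Set.range_comp]
      congr 2
    · rw [Groth.Agent.S0547.result, hB']
  have h2 : CAlg.IsRegularHom A' B' := Groth.Agent.S2039.result.mpr h1
  have h3 : CAlg.IsRegularHom A A' :=
    (Groth.Agent.CalgB.GRing2.isGRing_iff_of_isLocalRing A).mp hA
  have hst : IsScalarTower A A' B' := .of_algebraMap_eq fun x => by
    rw [hcomm]; rfl
  have h4 : CAlg.IsRegularHom A B' := isRegularHom_comp h3 h2
  have hfl : Module.Flat B B' := AdicCompletion.flat_of_isNoetherian _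
  have hlB : IsLocalHom (algebraMap B B') := inferInstance
  have hff : Module.FaithfullyFlat B B' := Module.FaithfullyFlat.of_flat_of_isLocalHom
  exact isRegularHom_of_faithfullyFlat h4

end Groth.Agent.Sga7.H874.RegParam
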